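import Cfsg.Agent.H29.Solubilizer.Unipotent

set_option autoImplicit false

/-!
Solubilizers in `PSL₂(2^n)`, `n` prime.
-/

namespace CfsgLib.H29.Solubilizer

open Matrix OnePoint MulAction CfsgLib.H29.Dickson
open scoped OnePoint

variable {F : Type*} [Field F] [Fintype F] [CharP F 2] [Fact (Nat.Prime 2)]

theorem classes_even {n : ℕ} (hn : n.Prime) (hF : Fintype.card F = 2 ^ n) (x : P2 F) :
    PairClass x := by
  intro G _ hG _
  have h4 : 4 ≤ Fintype.card F :=
    hF ▸ (show 4 = 2 ^ 2 by norm_num) ▸ Nat.pow_le_pow_right (by norm_num) hn.two_le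
  rcases solvable_cases 2 h4 hn hF hG with h | h | ⟨γ, L, hL, h⟩ | ⟨-, h⟩
  · exact Or.inl h
  · exact Or.inr h
  · have h6 : Nat.card G = 6 := by
      rw [← Subgroup.card_map_of_injective (K := G) (f := (MulAut.conj γ).toMonoidHom) (MulAut.conj γ).injective]
      show Nat.card ↥(G.map (MulAut.conj γ).toMonoidHom) = 6
      rcases h with h | h <;> rw [h]
      · rw [card_PL, hL]; norm_num
      · have := card_PS_mul L
        rw [hL] at this
        simpa using this
    obtain ⟨a, b, e, -, D, hle⟩ := six_le_T2 h6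
    exact Or.inr ⟨a, b, D.ne, hle⟩
  · exact absurd (by norm_num) h

theorem sq_conj_mem {x : P2 F} {y : P2 F} (hx : x * x = 1) (hy : y * y = 1) :
    y ∈ solSet x := by
  refine solvable_of_le ?_ ?_ (K := Subgroup.closure ({x, x * y} : Set (P2 F)))
  · refine closure_pair_le (Subgroup.subset_closure (by simp)) ?_
    have h1 : x ∈ Subgroup.closure ({x, x * y} : Set (P2 F)) := Subgroup.subset_closure (by simp)
    have h2 : x * y ∈ Subgroup.closure ({x, x * y} : Set (P2 F)) := Subgroup.subset_closure (by simp)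
    have := mul_mem h1 h2
    rwa [← mul_assoc, hx, one_mul] at this
  · -- a group generated by two involutions
    set c := x * y with hc
    have hinv : x * c * x⁻¹ = c⁻¹ := by
      rw [hc, _root_.mul_inv_rev, inv_eq_of_mul_eq_one_right hx, inv_eq_of_mul_eq_one_right hy,
        ← mul_assoc x x y, hx, one_mul]
    set K := Subgroup.zpowers c
    set H := Subgroup.closure ({x, c} : Set (P2 F))
    have hxH : x ∈ H := Subgroup.subset_closure (by simp)
    have hcH : c ∈ H := Subgroup.subset_closure (by simp)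
    have hnorm : H ≤ Subgroup.normalizer (K : Set (P2 F)) := by
      refine closure_pair_le ?_ (Subgroup.le_normalizer (Subgroup.mem_zpowers c))
      rw [Subgroup.mem_normalizer_iff]
      intro z
      have key : ∀ z ∈ K, x * z * x⁻¹ ∈ K := by
        rintro _ ⟨i, rfl⟩
        exact ⟨-i, by simp only; rw [← conj_zpow, hinv, _root_.inv_zpow, _root_.zpow_neg]⟩
      refine ⟨key z, fun h => ?_⟩
      have := key _ h
      rw [inv_eq_of_mul_eq_one_right hx] at this
      simpa [mul_assoc, hx, ← mul_assoc x x] using this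
    have hn : (K.subgroupOf H).Normal := Subgroup.normal_subgroupOf_of_le_normalizer hnorm
    let π := QuotientGroup.mk' (K.subgroupOf H)
    have hq : ∀ q : ↥H ⧸ K.subgroupOf H, q ∈ Subgroup.zpowers (π ⟨x, hxH⟩) := by
      intro q
      obtain ⟨⟨g, hg⟩, rfl⟩ := QuotientGroup.mk'_surjective _ q
      have hle : (Subgroup.closure ({⟨x, hxH⟩, ⟨c, hcH⟩} : Set H)) ≤
          (Subgroup.zpowers (π ⟨x, hxH⟩)).comap π := by
        refine closure_pair_le (Subgroup.mem_zpowers _) ?_
        rw [Subgroup.mem_comap]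
        have : π ⟨c, hcH⟩ = 1 := (QuotientGroup.eq_one_iff _).mpr (Subgroup.mem_zpowers c)
        rw [this]; exact one_mem _
      have htop : Subgroup.closure ({⟨x, hxH⟩, ⟨c, hcH⟩} : Set H) = ⊤ := by
        refine Subgroup.map_injective H.subtype_injective ?_
        rw [MonoidHom.map_closure, Set.image_pair, ← MonoidHom.range_eq_map, Subgroup.range_subtype]
        rfl
      exact hle (htop ▸ Subgroup.mem_top _)
    have : IsCyclic (↥H ⧸ K.subgroupOf H) := ⟨⟨_, hq⟩⟩
    let := IsCyclic.commGroup (α := ↥H ⧸ K.subgroupOf H)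
    have : Group.IsSolvable (↥H ⧸ K.subgroupOf H) :=
      Group.isSolvable_of_comm fun a b => mul_comm a b
    have : Group.IsSolvable (K.subgroupOf H) := Group.isSolvable_of_comm fun a b => by
      obtain ⟨i, hi⟩ := (a.2 : (a : P2 F) ∈ K)
      obtain ⟨j, hj⟩ := (b.2 : (b : P2 F) ∈ K)
      refine Subtype.ext (Subtype.ext ?_)
      change c ^ i = ((a : H) : P2 F) at hi
      change c ^ j = ((b : H) : P2 F) at hj
      simp only [Subgroup.coe_mul]
      rw [← hi, ← hj]
      exact (Commute.zpow_zpow_self c i j).eq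
    exact Group.isSolvable_of_ker_le_range (K.subgroupOf H).subtype π
      (by rw [Subgroup.range_subtype, QuotientGroup.ker_mk'])

theorem involution_even {n : ℕ} (hn : n.Prime) (hF : Fintype.card F = 2 ^ n) {x : P2 F}
    (hx1 : x ≠ 1) (hx : x * x = 1) :
    Nat.card ↥(solSet x ∩ (W F : Set (P2 F))) = 3 * Fintype.card F * (Fintype.card F - 1) := by
  classical
  have := finite_P2 (F := F)
  have hW : W F = ⊤ := W_eq_top CharTwo.two_eq_zero
  have hxp : x ^ 2 = 1 := by rw [pow_two, hx]
  obtain ⟨z, hxz, hzu, hzK⟩ := exists_unique_fixed 2 hx1 hxp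
  set q := Fintype.card F
  set B : Set (P2 F) := {y | y • z = z} with hB
  set J : Set (P2 F) := {y | y * y = 1} with hJ
  set J' : Set (P2 F) := {y | x * y * (x * y) = 1} with hJ'
  have hxi : x⁻¹ = x := inv_eq_of_mul_eq_one_right hx
  have hS : solSet x ∩ (W F : Set (P2 F)) = B ∪ (J ∪ J') := by
    ext y
    rw [hW]
    simp only [Subgroup.coe_top, Set.inter_univ, Set.mem_union, hB, hJ, hJ', Set.mem_ofPred_eq]
    constructor
    · intro hs
      have hxG : x ∈ Subgroup.closure ({x, y} : Set (P2 F)) := Subgroup.subset_closure (by simp)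
      have hyG : y ∈ Subgroup.closure ({x, y} : Set (P2 F)) := Subgroup.subset_closure (by simp)
      rcases classes_even hn hF x _ (hW ▸ le_top) hs hxG with ⟨w, hw⟩ | ⟨a, b, hab, hle⟩
      · left
        obtain rfl := hzu w (hw x hxG)
        exact hw y hyG
      · right
        have hxs : iota x • a = b ∧ iota x • b = a := by
          rcases hle hxG with h | h
          · exact absurd ((hzK a h.1).trans (hzK b h.2).symm) hab
          · exact h
        rcases hle hyG with h | h
        · right
          refine sq_eq_one_of_swap hab ?_ ?_ <;> rw [map_mul, mul_smul]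
          · rw [h.1, hxs.1]
          · rw [h.2, hxs.2]
        · exact Or.inl (sq_eq_one_of_swap hab h.1 h.2)
    · rintro (h | h | h)
      · exact mem_solSet_of_fix hxz h
      · exact sq_conj_mem hx h
      · have h' := sq_conj_mem hx h
        refine solvable_of_le ?_ h'
        refine closure_pair_le (Subgroup.subset_closure (by simp)) ?_
        have h1 : x ∈ Subgroup.closure ({x, x * y} : Set (P2 F)) := Subgroup.subset_closure (by simp)
        have h2 : x * y ∈ Subgroup.closure ({x, x * y} : Set (P2 F)) :=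
          Subgroup.subset_closure (by simp)
        have := mul_mem h1 h2
        rwa [← mul_assoc, hx, one_mul] at this
  have hBc : B.ncard = q * (q - 1) := by
    rw [← Nat.card_coe_set_eq]
    exact card_stab z
  have hJB : (B ∩ J).ncard = q := by
    rw [← Nat.card_coe_set_eq, show q = Nat.card F from Nat.card_eq_fintype_card.symm,
      ← card_fix_pow 2 z]
    exact Nat.card_congr (Equiv.subtypeEquivRight fun y => by simp [hB, hJ, pow_two])
  have hJc : J.ncard = q * q := by
    have e : J = insert (1 : P2 F) {y | y ≠ 1 ∧ y ^ 2 = 1} := by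
      ext y
      simp only [hJ, Set.mem_ofPred_eq, Set.mem_insert_iff, pow_two]
      by_cases hy : y = 1 <;> simp [hy]
    rw [e, Set.ncard_insert_of_notMem (fun h => h.1 rfl) (Set.toFinite _), ← Nat.card_coe_set_eq]
    show Nat.card {y : P2 F // y ≠ 1 ∧ y ^ 2 = 1} + 1 = _
    rw [card_pow_eq_one 2]
    have hq : 1 ≤ q := Fintype.card_pos
    obtain ⟨k, hk⟩ : ∃ k, q = k + 1 := ⟨q - 1, by omega⟩
    show (q + 1) * (q - 1) + 1 = q * q
    rw [hk, Nat.add_sub_cancel]
    ring
  have himg : ∀ s : Set (P2 F), ((fun y => x * y) '' s).ncard = s.ncard := fun s =>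
    Set.ncard_image_of_injective _ (mul_right_injective x)
  have hJ'e : J' = (fun y => x * y) '' J := by
    ext y
    refine ⟨fun h => ⟨x * y, h, by simp only; rw [← mul_assoc, hx, one_mul]⟩, ?_⟩
    rintro ⟨w, hw, rfl⟩
    show x * (x * w) * (x * (x * w)) = 1
    rw [← mul_assoc x x w, hx, one_mul]; exact hw
  have hBx : (fun y => x * y) '' B = B := by
    ext y
    refine ⟨?_, fun h => ⟨x * y, ?_, by simp only; rw [← mul_assoc, hx, one_mul]⟩⟩
    · rintro ⟨w, hw, rfl⟩; show (x * w) • z = z; rw [mul_smul, hw, hxz]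
    · show (x * y) • z = z; rw [mul_smul, h, hxz]
  have hBJ' : (B ∩ J').ncard = q := by
    rw [hJ'e]; nth_rewrite 1 [← hBx]
    rw [← Set.image_inter (mul_right_injective x), himg, hJB]
  have hJJ : J ∩ J' ⊆ B := by
    rintro y ⟨h1, h2⟩
    simp only [hJ, hJ', Set.mem_ofPred_eq] at h1 h2
    have hc : x * y = y * x := by
      calc x * y = (x * y)⁻¹ := (inv_eq_of_mul_eq_one_right h2).symm
        _ = y * x := by rw [_root_.mul_inv_rev, hxi, inv_eq_of_mul_eq_one_right h1]
    exact hzu _ (by rw [← mul_smul, hc, mul_smul, hxz])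
  have e1 := Set.ncard_union_add_ncard_inter B (J ∪ J')
  have e2 := Set.ncard_union_add_ncard_inter J J'
  have e3 := Set.ncard_union_add_ncard_inter (B ∩ J) (B ∩ J')
  have e4 : (B ∩ J) ∩ (B ∩ J') = J ∩ J' := by
    ext y
    exact ⟨fun h => ⟨h.1.2, h.2.2⟩, fun h => ⟨⟨hJJ h, h.1⟩, hJJ h, h.2⟩⟩
  rw [e4, hJB, hBJ', ← Set.inter_union_distrib_left] at e3
  have hJ'c : J'.ncard = q * q := by rw [hJ'e, himg, hJc]
  rw [hBc] at e1
  rw [hJc, hJ'c] at e2
  rw [Nat.card_coe_set_eq, hS]
  obtain ⟨k, hk⟩ : ∃ k, q = k + 1 := ⟨q - 1, by have : 0 < q := Fintype.card_pos; omega⟩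
  rw [hk, Nat.add_sub_cancel] at e1 ⊢
  rw [hk] at e2 e3
  nlinarith

end CfsgLib.H29.Solubilizer
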