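import Cfsg.Agent.H29.Solubilizer.Entries

set_option autoImplicit false

/-!
Solubilizers in `PSL₂(3^n)`, `n` an odd prime: general part.
-/

namespace CfsgLib.H29.Solubilizer

open Matrix OnePoint MulAction CfsgLib.H29.Dickson
open scoped OnePoint

theorem pow_three_mod_sixteen {n : ℕ} (hn : Odd n) : 3 ^ n % 16 = 3 ∨ 3 ^ n % 16 = 11 := by
  obtain ⟨k, rfl⟩ := hn
  induction k with
  | zero => simp
  | succ k ih =>
    rw [show 2 * (k + 1) + 1 = 2 * k + 1 + 2 by ring, pow_add, Nat.mul_mod]
    rcases ih with h | h <;> rw [h] <;> norm_num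

theorem mem_solSet_map_iff {G H : Type*} [Group G] [Group H] {f : G →* H}
    (hf : Function.Injective f) (x y : G) : f y ∈ solSet (f x) ↔ y ∈ solSet x := by
  have e : (Subgroup.closure ({x, y} : Set G)).map f = Subgroup.closure ({f x, f y} : Set H) := by
    rw [MonoidHom.map_closure, Set.image_pair]
  let eq := (Subgroup.closure ({x, y} : Set G)).equivMapOfInjective f hf
  show Group.IsSolvable ↥(Subgroup.closure ({f x, f y} : Set H)) ↔
    Group.IsSolvable ↥(Subgroup.closure ({x, y} : Set G))
  rw [← e]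
  constructor
  · intro h; exact solvable_of_equiv eq
  · intro h; exact solvable_of_equiv eq.symm

variable {F : Type*} [Field F] [Fintype F]

theorem card_solSet_conj (γ x : P2 F) :
    Nat.card ↥(solSet (MulAut.conj γ x) ∩ (W F : Set (P2 F))) =
      Nat.card ↥(solSet x ∩ (W F : Set (P2 F))) := by
  have := W_normal (F := F)
  refine (Nat.card_congr (Equiv.subtypeEquiv (MulAut.conj γ).toEquiv fun y => ?_)).symm
  show y ∈ solSet x ∧ y ∈ (W F) ↔
    MulAut.conj γ y ∈ solSet (MulAut.conj γ x) ∧ MulAut.conj γ y ∈ W F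
  refine and_congr (mem_solSet_map_iff (f := (MulAut.conj γ).toMonoidHom)
    (MulAut.conj γ).injective x y).symm ⟨fun h => this.conj_mem y h γ, fun h => ?_⟩
  have := this.conj_mem _ h γ⁻¹
  simpa [mul_assoc] using this

/-- The hypotheses on the field. -/
structure Ternary (F : Type*) [Field F] [Fintype F] : Prop where
  three : (3 : F) = 0
  two : (2 : F) ≠ 0
  mod : Fintype.card F % 16 = 3 ∨ Fintype.card F % 16 = 11
  prime_deg : ∃ n : ℕ, n.Prime ∧ Fintype.card F = 3 ^ n

theorem Ternary.nonsq (hF : Ternary F) : ¬ IsSquare (-1 : F) := by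
  rw [FiniteField.isSquare_neg_one_iff]
  have := hF.mod
  omega

theorem Ternary.four (hF : Ternary F) : 4 ≤ Fintype.card F := by
  obtain ⟨n, hn, h⟩ := hF.prime_deg
  rw [h]
  exact le_trans (show 4 ≤ 3 ^ 2 by norm_num) (Nat.pow_le_pow_right (by norm_num) hn.two_le)

theorem Ternary.gcd (hF : Ternary F) : Nat.gcd 2 (Fintype.card F - 1) = 2 := gcd_eq_two hF.two

theorem A4_facts : ∀ x : alternatingGroup (Fin 4), x * x = 1 ∨ x * x * x = 1 := by decide

theorem A4_invol : ∀ x y : alternatingGroup (Fin 4), x * x = 1 → x ≠ 1 → y * y = 1 ∨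
    (x * y) * (x * y) = 1 ∨ (y ≠ 1 ∧ y * y * y = 1 ∧ (x * y) * (x * y) * (x * y) = 1) := by
  decide +kernel

theorem A4_three : ∀ x y : alternatingGroup (Fin 4), x * x * x = 1 → x ≠ 1 →
    y = 1 ∨ y = x ∨ y = x * x ∨ ∃ z : alternatingGroup (Fin 4), z * z = 1 ∧ z ≠ 1 ∧
      (x * z) * (x * z) * (x * z) = 1 ∧ (y = z ∨ y = x * z ∨ y = x * x * z) := by
  decide +kernel

variable [CharP F 3] [Fact (Nat.Prime 3)]

/-- Solvable subgroups of `W`. -/
theorem classes_three (hF : Ternary F) {G : Subgroup (P2 F)} (hGW : G ≤ W F)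
    (hG : Group.IsSolvable G) :
    (∃ z : OnePoint F, ∀ g ∈ G, g • z = z) ∨
      (∃ a b : OnePoint (KK F), a ≠ b ∧ G ≤ T2 a b) ∨
      ∃ φ : G →* alternatingGroup (Fin 4), Function.Injective φ := by
  classical
  have := finite_P2 (F := F)
  obtain ⟨n, hn, hcard⟩ := hF.prime_deg
  rcases solvable_cases 3 hF.four hn hcard hG with h | h | ⟨γ, L, hL, h⟩ | ⟨-, h⟩
  · exact Or.inl h
  · exact Or.inr (Or.inl h)
  · right; right
    have : Fintype L := Fintype.ofFinite L
    have hWn := W_normal (F := F)
    have hle : G.map (MulAut.conj γ).toMonoidHom ≤ W F := (conj_le_iff γ).mpr hGW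
    have hc12 : Nat.card ↥(G.map (MulAut.conj γ).toMonoidHom) = 12 := by
      rcases h with h | h
      · exfalso
        have hd : Nat.card ↥(G.map (MulAut.conj γ).toMonoidHom) ∣ Nat.card (W F) :=
          Subgroup.card_dvd_of_le hle
        rw [h, card_PL, hL] at hd
        have h2 := card_W_two hF.two
        obtain ⟨k, hk⟩ := hd
        rw [hk] at h2
        set q := Fintype.card F with hq
        have hodd : Nat.Coprime 16 q := by
          rw [hcard]
          exact Nat.Coprime.pow_right n (by norm_num)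
        have h16 : 16 ∣ q ^ 2 - 1 :=
          hodd.dvd_of_dvd_mul_left (h2 ▸ (⟨3 * k, by ring⟩ : 16 ∣ 3 * (3 ^ 2 - 1) * k * 2))
        have hsq : q ^ 2 % 16 = 9 := by
          rw [Nat.pow_mod]
          rcases hF.mod with h | h <;> rw [h]
        omega
      · rw [h]
        have := card_PS_mul L
        rw [hL] at this
        norm_num at this
        omega
    have hPL : G.map (MulAut.conj γ).toMonoidHom ≤ PL L := by
      rcases h with h | h <;> rw [h]
      exact PS_le_PL L
    obtain ⟨e4⟩ := iso_S4_three (L := L) hL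
    let ψ : G.map (MulAut.conj γ).toMonoidHom →* Equiv.Perm (Fin 4) :=
      e4.toMonoidHom.comp ((MonoidHom.ofInjective (pgl_map_injective L.subtype)).symm.toMonoidHom.comp
        (Subgroup.inclusion hPL))
    have hψ : Function.Injective ψ := by
      simp only [ψ, MonoidHom.coe_comp]
      exact e4.injective.comp ((MulEquiv.injective _).comp (Subgroup.inclusion_injective _))
    obtain ⟨e⟩ := iso_alternating_of_injective (α := Fin 4) (n := 4) (by simp) ψ hψ (by
      rw [hc12]; decide)
    exact ⟨((equivConj G γ).trans e).toMonoidHom, ((equivConj G γ).trans e).injective⟩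
  · exact absurd (by norm_num) h

theorem pairClass_three (hF : Ternary F) {x : P2 F} (hx2 : x * x ≠ 1) (hx3 : x ^ 3 ≠ 1) :
    PairClass x := by
  intro G hGW hG hxG
  rcases classes_three hF hGW hG with h | h | ⟨φ, hφ⟩
  · exact Or.inl h
  · exact Or.inr h
  · exfalso
    rcases A4_facts (φ ⟨x, hxG⟩) with h | h
    · rw [← map_mul, ← map_one φ] at h
      exact hx2 (congrArg Subtype.val (hφ h))
    · rw [← map_mul, ← map_mul, ← map_one φ] at h
      have h' := congrArg Subtype.val (hφ h)
      exact hx3 (by rw [pow_succ, pow_two]; exact h')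

end CfsgLib.H29.Solubilizer
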