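import Cfsg.Agent.H29.Solubilizer.Three

set_option autoImplicit false

/-!
Solubilizer of an involution in `PSL₂(3^n)`.
-/

namespace CfsgLib.H29.Solubilizer

open Matrix OnePoint MulAction CfsgLib.H29.Dickson
open scoped OnePoint

variable {F : Type*} [Field F] [Fintype F]

theorem card_involutions (hF : Ternary F) :
    2 * Nat.card {y : P2 F // y ∈ W F ∧ y * y = 1 ∧ y ≠ 1} =
      Fintype.card F * (Fintype.card F - 1) := by
  classical
  have hns := hF.nonsq
  have h0 : ∀ (u : F) (v : {v : F // v ≠ 0 ∧ IsSquare v}),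
      u * (-u) - v.1 * (-(1 + u * u) / v.1) = 1 := fun u v => by
    have := v.2.1; field_simp; ring
  rw [← card_squares hns, mul_left_comm, ← Nat.card_eq_fintype_card, ← Nat.card_prod]
  congr 1
  refine (Nat.card_congr (Equiv.ofBijective
    (fun w : F × {v : F // v ≠ 0 ∧ IsSquare v} =>
      (⟨E w.1 w.2.1 (-(1 + w.1 * w.1) / w.2.1) (-w.1) (h0 w.1 w.2), E_mem_W _ _ _ _ _,
        (E_sq_eq_one_iff _ _ _ _ _).mpr (Or.inl (by ring)),
        fun e => w.2.2.1 ((E_eq_one_iff _ _ _ _ _).mp e).1⟩ :
        {y : P2 F // y ∈ W F ∧ y * y = 1 ∧ y ≠ 1})) ⟨?_, ?_⟩)).symm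
  · rintro ⟨u, v⟩ ⟨u', v'⟩ h
    rcases (E_eq_iff (h0 u v) (h0 u' v')).mp (congrArg Subtype.val h) with ⟨e1, e2, -, -⟩ | ⟨-, e2, -, -⟩
    · exact Prod.ext e1.symm (Subtype.ext e2.symm)
    · exfalso
      refine hns ?_
      have := (e2 ▸ v'.2.2).div v.2.2
      rwa [neg_div, div_self v.2.1] at this
  · rintro ⟨y, hyW, h2, h1⟩
    obtain ⟨a, b, c, d, h, rfl⟩ := exists_E hyW
    have hd : d = -a := by
      linear_combination ((E_sq_eq_one_iff _ _ _ _ h).mp h2).resolve_right h1
    subst hd
    have hb : b ≠ 0 := by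
      rintro rfl
      exact hns ⟨a, by linear_combination h⟩
    by_cases hsq : IsSquare b
    · exact ⟨(a, ⟨b, hb, hsq⟩), Subtype.ext (E_congr (h0 a ⟨b, hb, hsq⟩) h rfl rfl
        (by simp only; rw [div_eq_iff hb]; linear_combination h) rfl)⟩
    · have hsq' : IsSquare (-b) := by
        refine (quadraticChar_one_iff_isSquare (F := F) (neg_ne_zero.mpr hb)).mp ?_
        have h1 := quadraticChar_neg_one_iff_not_isSquare.mpr hns
        have h2 := quadraticChar_neg_one_iff_not_isSquare.mpr hsq
        rw [neg_eq_neg_one_mul, map_mul, h1, h2]; norm_num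
      refine ⟨(-a, ⟨-b, neg_ne_zero.mpr hb, hsq'⟩), Subtype.ext ?_⟩
      simp only
      rw [E_neg h]
      exact E_congr _ _ rfl rfl (by rw [div_eq_iff (neg_ne_zero.mpr hb)]; linear_combination h)
        (by ring)

variable [CharP F 3] [Fact (Nat.Prime 3)]



/-- the standard involution -/
noncomputable def omega (F : Type*) [Field F] : P2 F := E 0 1 (-1) 0 (by ring)

theorem solSet_omega (hF : Ternary F) :
    Nat.card ↥(solSet (omega F) ∩ (W F : Set (P2 F))) =
      Fintype.card F * (Fintype.card F + 1) := by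
  classical
  have := finite_P2 (F := F)
  have hns := hF.nonsq
  set q := Fintype.card F with hq
  set ω : P2 F := omega F with hωdef
  have hωW : ω ∈ W F := E_mem_W _ _ _ _ _
  have hω1 : ω ≠ 1 := by rw [hωdef, omega, Ne, E_eq_one_iff]; simp
  have hω : ω * ω = 1 := (E_sq_eq_one_iff _ _ _ _ _).mpr (Or.inl (by ring))
  have hωi : ω⁻¹ = ω := inv_eq_of_mul_eq_one_right hω
  have hω3 : ω ^ 3 ≠ 1 := by
    rw [pow_succ, pow_two, hω, one_mul]; exact hω1
  have hord : orderOf ω = 2 := orderOf_eq_prime (by rw [pow_two, hω]) hω1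
  -- its torus
  obtain ⟨a, b, e, he, D, hωT, -, hge⟩ := orderOf_cases 3 hω1 hω3
  have hge := hge hωW
  rw [hF.gcd, hord] at hge
  have heq : e = q + 1 := by
    rcases he with he | he
    · exfalso
      have := hF.mod
      omega
    · exact he
  have hi : iota ω ≠ 1 := (map_ne_one_iff _ iota_injective).mpr hω1
  have hfix : ∀ z, iota ω • z = z → z = a ∨ z = b := by
    intro z hz
    by_contra h
    push Not at h
    exact hi (eq_one_of_fix₃ D.ne h.1.symm h.2.symm hωT.1 hωT.2 hz)
  have hnof : ∀ z : OnePoint F, ω • z ≠ z := by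
    intro z hz
    have h4 := hF.four
    rcases D.rational h4 (by omega) with ⟨h', -⟩ | ⟨-, θ, t, d, hθ, -, -, ha, hb⟩
    · omega
    have hzθ : ∀ c : KK F, (∀ w : F, algebraMap F (KK F) w ≠ c) → ex z ≠ (c : OnePoint (KK F)) := by
      intro c hc e
      cases z with
      | infty => rw [ex_infty] at e; exact infty_ne_coe _ e
      | coe w => rw [ex_coe, coe_eq_coe] at e; exact hc w e
    rcases hfix (ex z) (by rw [iota_smul_ex, hz]) with h | h
    · exact hzθ θ hθ (h.trans ha)
    · refine hzθ _ (fun w e => ?_) (h.trans hb)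
      exact hθ (t - w) (by rw [map_sub, e]; ring)
  obtain ⟨hTW, hT2W, -⟩ := D.special
  rw [hF.gcd, heq] at hTW
  set T : Set (P2 F) := ((T2 a b ⊓ W F : Subgroup (P2 F)) : Set (P2 F)) with hT
  set J : Set (P2 F) := {y | y ∈ W F ∧ y * y = 1} with hJ
  set J' : Set (P2 F) := {y | y ∈ W F ∧ ω * y * (ω * y) = 1} with hJ'
  set Y : Set (P2 F) := {y | y ∈ W F ∧ y ≠ 1 ∧ y * y * y = 1 ∧
    ω * y * (ω * y) * (ω * y) = 1} with hY
  have hS : solSet ω ∩ (W F : Set (P2 F)) = (T ∪ (J ∪ J')) ∪ Y := by
    ext y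
    simp only [Set.mem_inter_iff, Set.mem_union, hT, hJ, hJ', hY, SetLike.mem_coe,
      Subgroup.mem_inf, Set.mem_ofPred_eq]
    constructor
    · rintro ⟨hs, hy⟩
      set G := Subgroup.closure ({ω, y} : Set (P2 F))
      have hxG : ω ∈ G := Subgroup.subset_closure (by simp)
      have hyG : y ∈ G := Subgroup.subset_closure (by simp)
      rcases classes_three hF (closure_pair_le hωW hy) hs with ⟨w, hw⟩ | ⟨c, d, hcd, hle⟩ | ⟨φ, hφ⟩
      · exact absurd (hw ω hxG) (hnof w)
      · rcases hle hxG with h | h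
        · left; left
          refine ⟨?_, hy⟩
          rcases hfix c h.1 with rfl | rfl <;> rcases hfix d h.2 with rfl | rfl
          · exact absurd rfl hcd
          · exact hle hyG
          · have := hle hyG
            rw [mem_T2] at this ⊢
            tauto
          · exact absurd rfl hcd
        · rcases hle hyG with g | g
          · left; right; right
            refine ⟨hy, sq_eq_one_of_swap hcd ?_ ?_⟩ <;> rw [map_mul, mul_smul]
            · rw [g.1, h.1]
            · rw [g.2, h.2]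
          · left; right; left
            exact ⟨hy, sq_eq_one_of_swap hcd g.1 g.2⟩
      · have hone : ∀ g : G, φ g = 1 ↔ g = 1 := fun g =>
          ⟨fun h => hφ (h.trans (map_one φ).symm), fun h => by rw [h, map_one]⟩
        have hX : φ ⟨ω, hxG⟩ * φ ⟨ω, hxG⟩ = 1 := by
          rw [← map_mul, hone]; exact Subtype.ext hω
        have hX1 : φ ⟨ω, hxG⟩ ≠ 1 := by
          rw [Ne, hone]; exact fun h => hω1 (congrArg Subtype.val h)
        rcases A4_invol (φ ⟨ω, hxG⟩) (φ ⟨y, hyG⟩) hX hX1 with h | h | ⟨h1, h2, h3⟩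
        · rw [← map_mul, hone] at h
          exact Or.inl (Or.inr (Or.inl ⟨hy, congrArg Subtype.val h⟩))
        · rw [← map_mul, ← map_mul, hone] at h
          exact Or.inl (Or.inr (Or.inr ⟨hy, congrArg Subtype.val h⟩))
        · rw [Ne, hone] at h1
          rw [← map_mul, ← map_mul, hone] at h2
          rw [← map_mul, ← map_mul, ← map_mul, hone] at h3
          exact Or.inr ⟨hy, fun e => h1 (Subtype.ext e), congrArg Subtype.val h2,
            congrArg Subtype.val h3⟩
    · -- two involutions lie in a torus normaliser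
      have hdih : ∀ u : P2 F, u ∈ W F → u * u = 1 → u ∈ solSet ω := by
        intro u hu huu
        set c := ω * u with hc
        have hinv : ω * c * ω⁻¹ = c⁻¹ := by
          rw [hc, _root_.mul_inv_rev, hωi, inv_eq_of_mul_eq_one_right huu, ← mul_assoc ω ω u, hω,
            one_mul]
        by_cases hc1 : c = 1
        · refine mem_solSet_of_T2 D.ne (T1_le_T2 a b hωT) ?_
          rw [← inv_eq_of_mul_eq_one_right hc1, hωi]
          exact T1_le_T2 a b hωT
        · by_cases hcp : c ^ 3 = 1
          · have hω' : ω * u * (ω * u) * (ω * u) = 1 := by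
              rw [← pow_two, ← pow_succ]; exact hcp
            -- `ω` would fix the fixed point of `c`
            exfalso
            obtain ⟨z, hz, hzu, -⟩ := exists_unique_fixed 3 hc1 hcp
            refine hnof z (hzu _ ?_)
            have hcω : c * ω = ω * c⁻¹ := by rw [← hinv, hωi, ← mul_assoc, ← mul_assoc, hω, one_mul]
            have hcz : c⁻¹ • z = z := by rw [inv_smul_eq_iff, hz]
            rw [← mul_smul, hcω, mul_smul, hcz]
          · obtain ⟨a', b', e', -, D', hcT, hωT'⟩ := mem_T2_of_inverting 3 hc1 hcp hinv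
            refine mem_solSet_of_T2 D'.ne hωT' ?_
            have := mul_mem (inv_mem hωT') (T1_le_T2 _ _ hcT)
            rwa [hc, inv_mul_cancel_left] at this
      rintro ((⟨h, hy⟩ | ⟨hy, h⟩ | ⟨hy, h⟩) | ⟨hy, -, h2, h3⟩)
      · exact ⟨mem_solSet_of_T2 D.ne (T1_le_T2 a b hωT) h, hy⟩
      · exact ⟨hdih y hy h, hy⟩
      · refine ⟨solvable_of_le ?_ (hdih (ω * y) (mul_mem hωW hy) h), hy⟩
        refine closure_pair_le (Subgroup.subset_closure (by simp)) ?_
        have h1 : ω ∈ Subgroup.closure ({ω, ω * y} : Set (P2 F)) := Subgroup.subset_closure (by simp)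
        have h2 : ω * y ∈ Subgroup.closure ({ω, ω * y} : Set (P2 F)) :=
          Subgroup.subset_closure (by simp)
        have := mul_mem h1 h2
        rwa [← mul_assoc, hω, one_mul] at this
      · exact ⟨solvable_of_two_three_three hω h2 h3, hy⟩
  -- sizes
  have hTc : T.ncard = q + 1 := by
    rw [hT, ← Nat.card_coe_set_eq]
    show Nat.card ↥(T2 a b ⊓ W F) = q + 1
    omega
  have hJc : 2 * J.ncard = q * (q - 1) + 2 := by
    have e1 : J = insert (1 : P2 F) {y | y ∈ W F ∧ y * y = 1 ∧ y ≠ 1} := by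
      ext y
      simp only [hJ, Set.mem_ofPred_eq, Set.mem_insert_iff]
      by_cases hy : y = 1 <;> simp [hy, one_mem]
    rw [e1, Set.ncard_insert_of_notMem (fun h => h.2.2 rfl) (Set.toFinite _), mul_add,
      ← Nat.card_coe_set_eq]
    show 2 * Nat.card {y : P2 F // y ∈ W F ∧ y * y = 1 ∧ y ≠ 1} + 2 * 1 = _
    rw [card_involutions hF]
  have hJ'e : J' = (fun y => ω * y) '' J := by
    ext y
    constructor
    · rintro ⟨hy, h⟩
      exact ⟨ω * y, ⟨mul_mem hωW hy, h⟩, by simp only; rw [← mul_assoc, hω, one_mul]⟩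
    · rintro ⟨w, ⟨hw, hww⟩, rfl⟩
      refine ⟨mul_mem hωW hw, ?_⟩
      rw [← mul_assoc ω ω w, hω, one_mul]; exact hww
  have hTimg : (fun y => ω * y) '' T = T := by
    have hωm : ω ∈ T2 a b ⊓ W F := ⟨T1_le_T2 a b hωT, hωW⟩
    ext y
    refine ⟨?_, fun h => ⟨ω * y, mul_mem hωm h, by simp only; rw [← mul_assoc, hω, one_mul]⟩⟩
    rintro ⟨w, hw, rfl⟩
    exact mul_mem hωm hw
  have hswap : ∀ g : P2 F, g ∈ T2 a b → g ∉ T1 a b → g * g = 1 := by
    intro g hg hg1
    rcases hg with h | h
    · exact absurd h hg1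
    · exact sq_eq_one_of_swap D.ne h.1 h.2
  have hTJ : (T ∩ J).ncard + Nat.card ↥(T1 a b ⊓ W F) = q + 1 + 2 := by
    set C : Set (P2 F) := ((T1 a b ⊓ W F : Subgroup (P2 F)) : Set (P2 F)) with hC
    have e1 : (T ∩ J) ∪ C = T := by
      ext y
      simp only [hT, hJ, hC, Set.mem_union, Set.mem_inter_iff, SetLike.mem_coe, Subgroup.mem_inf,
        Set.mem_ofPred_eq]
      constructor
      · rintro (⟨h, -⟩ | ⟨h, hy⟩)
        · exact h
        · exact ⟨T1_le_T2 a b h, hy⟩
      · rintro ⟨h, hy⟩
        by_cases h1 : y ∈ T1 a b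
        · exact Or.inr ⟨h1, hy⟩
        · exact Or.inl ⟨⟨h, hy⟩, hy, hswap y h h1⟩
    have e2 : (T ∩ J) ∩ C = {1, ω} := by
      ext y
      simp only [hT, hJ, hC, Set.mem_inter_iff, SetLike.mem_coe, Subgroup.mem_inf,
        Set.mem_ofPred_eq, Set.mem_insert_iff, Set.mem_singleton_iff]
      constructor
      · rintro ⟨⟨-, -, hyy⟩, hy1, -⟩
        by_contra hne
        push Not at hne
        have := isCyclic_T1 (F := F) D.ne
        have : Fintype (T1 (F := F) a b) := Fintype.ofFinite _
        have hcard := IsCyclic.card_pow_eq_one_le (α := T1 (F := F) a b) (n := 2) two_pos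
        refine absurd hcard (not_le.mpr ?_)
        let l : Finset (T1 (F := F) a b) := {1, ⟨ω, hωT⟩, ⟨y, hy1⟩}
        have hl : l.card = 3 := by
          rw [Finset.card_eq_three]
          exact ⟨1, ⟨ω, hωT⟩, ⟨y, hy1⟩, fun h => hω1 (congrArg Subtype.val h).symm,
            fun h => hne.1 (congrArg Subtype.val h).symm,
            fun h => hne.2 (congrArg Subtype.val h).symm, rfl⟩
        refine lt_of_lt_of_le (show 2 < l.card by omega) (Finset.card_le_card fun w hw => ?_)
        simp only [l, Finset.mem_insert, Finset.mem_singleton] at hw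
        simp only [Finset.mem_filter, Finset.mem_univ, true_and]
        rcases hw with rfl | rfl | rfl
        · exact one_pow 2
        · exact Subtype.ext (by rw [pow_two]; exact hω)
        · exact Subtype.ext (by rw [pow_two]; exact hyy)
      · rintro (rfl | rfl)
        · exact ⟨⟨⟨one_mem _, one_mem _⟩, one_mem _, one_mul 1⟩, one_mem _, one_mem _⟩
        · exact ⟨⟨⟨T1_le_T2 a b hωT, hωW⟩, hωW, hω⟩, hωT, hωW⟩
    have h := Set.ncard_union_add_ncard_inter (T ∩ J) C
    rw [e1, e2, hTc, Set.ncard_pair hω1.symm] at h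
    have hCc : C.ncard = Nat.card ↥(T1 a b ⊓ W F) := by rw [hC, ← Nat.card_coe_set_eq]; rfl
    omega
  have hTJ' : (T ∩ J').ncard = (T ∩ J).ncard := by
    rw [hJ'e]; nth_rewrite 1 [← hTimg]
    rw [← Set.image_inter (mul_right_injective ω),
      Set.ncard_image_of_injective _ (mul_right_injective ω)]
  have hJJ : J ∩ J' ⊆ T := by
    rintro y ⟨⟨hyW, h1⟩, -, h2⟩
    have hc : ω * y = y * ω := by
      calc ω * y = (ω * y)⁻¹ := (inv_eq_of_mul_eq_one_right h2).symm
        _ = y * ω := by rw [_root_.mul_inv_rev, hωi, inv_eq_of_mul_eq_one_right h1]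
    refine ⟨?_, hyW⟩
    have key : ∀ z : OnePoint (KK F), iota ω • z = z → iota ω • (iota y • z) = iota y • z := fun z hz => by
      rw [← mul_smul, ← map_mul, hc, map_mul, mul_smul, hz]
    show y ∈ T2 a b
    rw [mem_T2]
    rcases hfix _ (key a hωT.1) with h | h <;> rcases hfix _ (key b hωT.2) with h' | h'
    · exact absurd (smul_left_cancel _ (h.trans h'.symm)) D.ne
    · exact Or.inl ⟨h, h'⟩
    · exact Or.inr ⟨h, h'⟩
    · exact absurd (smul_left_cancel _ (h.trans h'.symm)) D.ne
  have hd : Disjoint (T ∪ (J ∪ J')) Y := by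
    rw [Set.disjoint_left]
    rintro y hy ⟨-, h1, h3, h4⟩
    have hno : y * y ≠ 1 := fun h => h1 (by rw [h, one_mul] at h3; exact h3)
    rcases hy with ⟨hy, hyW⟩ | ⟨-, h⟩ | ⟨-, h⟩
    · by_cases hy1 : y ∈ T1 a b
      · have hdd : orderOf (⟨y, hy1, hyW⟩ : ↥(T1 a b ⊓ W F)) ∣ Nat.card ↥(T1 a b ⊓ W F) :=
          orderOf_dvd_natCard _
        rw [← Subgroup.orderOf_coe] at hdd
        have h3' : y ^ 3 = 1 := by rw [pow_succ, pow_two]; exact h3
        have := orderOf_eq_prime h3' h1
        simp only [this] at hdd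
        obtain ⟨k, hk⟩ := hdd
        obtain ⟨n, hn, hn'⟩ := hF.prime_deg
        have : 3 ∣ q := (hq.trans hn') ▸ dvd_pow_self 3 hn.ne_zero
        omega
      · exact hno (hswap y hy hy1)
    · exact hno h
    · rw [h, one_mul] at h4
      have : y = ω := by rw [← hωi]; exact eq_inv_of_mul_eq_one_right h4
      exact hno (this ▸ hω)
  -- the elements of order three
  have hp : ∀ (s : Bool) (w : {w : F × F // w.1 * w.1 + w.2 * w.2 = 1}),
      (w.1.1 + 1) * (-1 - (w.1.1 + 1)) -
        (w.1.2 + bif s then 1 else -1) * ((w.1.2 + bif s then 1 else -1) + bif s then 1 else -1) = 1 := by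
    intro s w
    obtain ⟨⟨u, v⟩, h⟩ := w
    cases s <;> simp only [cond_true, cond_false] at h ⊢
    · linear_combination -h + (-u + v - 2) * hF.three
    · linear_combination -h + (-u - v - 2) * hF.three
  have hYc : Y.ncard = 2 * (q + 1) := by
    rw [← Nat.card_coe_set_eq, hq, ← card_circle hns hF.two,
      show (2 : ℕ) = Nat.card Bool by simp, ← Nat.card_prod]
    refine (Nat.card_congr (Equiv.ofBijective (fun w : Bool × _ =>
      (⟨E (w.2.1.1 + 1) (w.2.1.2 + bif w.1 then 1 else -1)
        ((w.2.1.2 + bif w.1 then 1 else -1) + bif w.1 then 1 else -1) (-1 - (w.2.1.1 + 1))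
        (hp w.1 w.2), ?_⟩ : Y)) ⟨?_, ?_⟩)).symm
    · refine ⟨E_mem_W _ _ _ _ _, ?_, ?_, ?_⟩
      · rw [Ne, E_eq_one_iff]
        rintro ⟨h1, h2, -⟩
        rw [h1, zero_add] at h2
        obtain ⟨s, w⟩ := w
        cases s <;> simp at h2
      · rw [E_cube_eq_one_iff]; left; ring
      · rw [hωdef, omega, E_mul, E_cube_eq_one_iff]; left
        cases w.1 <;> simp only [cond_true, cond_false] <;> ring
    · rintro ⟨s, ⟨⟨u, v⟩, huv⟩⟩ ⟨t, ⟨⟨u', v'⟩, huv'⟩⟩ h
      rcases (E_eq_iff (hp s _) (hp t _)).mp (congrArg Subtype.val h) with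
        ⟨e1, e2, e3, -⟩ | ⟨e1, -, -, e4⟩
      · simp only at e1 e2 e3
        have hu : u' = u := by linear_combination e1
        have hst : s = t := by
          have h1 : ((bif t then 1 else -1 : F)) = bif s then 1 else -1 := by linear_combination e3 - e2
          cases s <;> cases t <;> simp only [cond_true, cond_false] at h1
          · rfl
          · exact absurd (by linear_combination h1 : (2 : F) = 0) hF.two
          · exact absurd (by linear_combination -h1 : (2 : F) = 0) hF.two
          · rfl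
        subst hst hu
        exact Prod.ext rfl (Subtype.ext (Prod.ext rfl (by simp only; linear_combination -e2)))
      · exact absurd (by linear_combination -(e1 + e4) : (2 : F) = 0) hF.two
    · rintro ⟨y, hyW, h1, h3, h4⟩
      obtain ⟨p, b', c, d, h, hy⟩ := exists_E hyW
      obtain ⟨p, b', c, d, h, ht, hy⟩ : ∃ p b c d : F, ∃ h : p * d - b * c = 1,
          p + d = -1 ∧ y = E p b c d h := by
        rw [hy] at h1 h3
        rcases mul_self_eq_one_iff.mp (((E_cube_eq_one_iff _ _ _ _ h).mp h3).resolve_right h1)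
          with e | e
        · exact ⟨-p, -b', -c, -d, by linear_combination h, by linear_combination -e,
            hy.trans (E_neg h)⟩
        · exact ⟨p, b', c, d, h, e, hy⟩
      subst hy
      rw [hωdef, omega, E_mul, E_cube_eq_one_iff] at h4
      have hs : (c - b') * (c - b') = 1 := by
        rcases h4 with h4 | h4
        · linear_combination h4
        · exfalso
          rw [← E_mul 0 1 (-1) 0 (by ring) p b' c d h] at h4
          have e := eq_inv_of_mul_eq_one_right h4
          rw [show E 0 1 (-1) 0 (by ring) = ω from rfl] at e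
          rw [e, hωi, hω, one_mul] at h3
          exact hω1 h3
      have hd : d = -1 - p := by linear_combination ht
      subst hd
      rcases mul_self_eq_one_iff.mp hs with e | e
      · have hc : c = b' + 1 := by linear_combination e
        subst hc
        have hw : (p - 1) * (p - 1) + (b' - 1) * (b' - 1) = 1 := by
          linear_combination -h + (-p - b') * hF.three
        refine ⟨(true, ⟨(p - 1, b' - 1), hw⟩),
          Subtype.ext (E_congr (hp true ⟨(p - 1, b' - 1), hw⟩) h ?_ ?_ ?_ ?_)⟩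
        all_goals simp
      · have hc : c = b' - 1 := by linear_combination e
        subst hc
        have hw : (p - 1) * (p - 1) + (b' + 1) * (b' + 1) = 1 := by
          linear_combination -h + (-p + b') * hF.three
        refine ⟨(false, ⟨(p - 1, b' + 1), hw⟩),
          Subtype.ext (E_congr (hp false ⟨(p - 1, b' + 1), hw⟩) h ?_ ?_ ?_ ?_)⟩
        all_goals simp [sub_eq_add_neg]
  -- count
  rw [Nat.card_coe_set_eq, hS, Set.ncard_union_eq hd, hYc]
  have u1 := Set.ncard_union_add_ncard_inter T (J ∪ J')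
  have u2 := Set.ncard_union_add_ncard_inter J J'
  have u3 := Set.ncard_union_add_ncard_inter (T ∩ J) (T ∩ J')
  have e4 : (T ∩ J) ∩ (T ∩ J') = J ∩ J' := by
    ext y
    exact ⟨fun h => ⟨h.1.2, h.2.2⟩, fun h => ⟨⟨hJJ h, h.1⟩, hJJ h, h.2⟩⟩
  rw [e4, ← Set.inter_union_distrib_left, hTJ'] at u3
  have hJ'c : J'.ncard = J.ncard := by
    rw [hJ'e, Set.ncard_image_of_injective _ (mul_right_injective ω)]
  rw [hJ'c] at u2
  obtain ⟨k, hk⟩ : ∃ k, q = k + 1 := ⟨q - 1, by have : 0 < q := Fintype.card_pos; omega⟩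
  rw [hk, Nat.add_sub_cancel] at hJc
  rw [hk] at hTc hTW hTJ ⊢
  nlinarith

theorem solSet_involution (hF : Ternary F) {x : P2 F} (hxW : x ∈ W F) (hx1 : x ≠ 1)
    (hx : x * x = 1) :
    Nat.card ↥(solSet x ∩ (W F : Set (P2 F))) = Fintype.card F * (Fintype.card F + 1) := by
  obtain ⟨a, b, c, d, h, rfl⟩ := exists_E hxW
  have hd : d = -a := by
    linear_combination ((E_sq_eq_one_iff _ _ _ _ h).mp hx).resolve_right hx1
  subst hd
  have hb : b ≠ 0 := by
    rintro rfl
    exact hF.nonsq ⟨a, by linear_combination h⟩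
  set g : P2 F := pr (el 0 (-b) 1 a (by simpa using hb)) with hg
  have hconj : E a b c (-a) h = MulAut.conj g (omega F) := by
    rw [MulAut.conj_apply, eq_mul_inv_iff_mul_eq, hg, omega, E, E, ← map_mul, ← map_mul]
    refine congrArg pr (Units.ext ?_)
    ext i j
    rw [gl_mul_apply, gl_mul_apply]
    fin_cases i <;> fin_cases j <;> simp <;> first | ring1 | linear_combination h
  rw [hconj, card_solSet_conj]
  exact solSet_omega hF

end CfsgLib.H29.Solubilizer
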