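import Cfsg.Agent.H29.Solubilizer.Three

set_option autoImplicit false

/-!
Solubilizer of an element of order three in `PSL₂(3^n)`.
-/

namespace CfsgLib.H29.Solubilizer

open Matrix OnePoint MulAction CfsgLib.H29.Dickson
open scoped OnePoint

variable {F : Type*} [Field F] [Fintype F] [CharP F 3] [Fact (Nat.Prime 3)]

omit [Fintype F] [CharP F 3] [Fact (Nat.Prime 3)] in
theorem tra_one_eq : tra (1 : F) = E 1 1 0 1 (by ring) := rfl

theorem solSet_three (hF : Ternary F) :
    Nat.card ↥(solSet (tra (1 : F)) ∩ (W F : Set (P2 F))) * 2 =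
      Fintype.card F * (Fintype.card F + 5) := by
  classical
  have := finite_P2 (F := F)
  set τ : P2 F := tra (1 : F) with hτdef
  have hτW : τ ∈ W F := tra_mem_W 1
  have hτ1 : τ ≠ 1 := fun e => one_ne_zero (tra_injective (e.trans tra_zero.symm))
  have hτ3 : τ ^ 3 = 1 := tra_pow_char 3 1
  have hτ3' : τ * τ * τ = 1 := by rw [← pow_two, ← pow_succ]; exact hτ3
  have hτi : τ⁻¹ = τ * τ := inv_eq_of_mul_eq_one_right (by rw [← mul_assoc]; exact hτ3')
  have hτ2 : τ * τ ≠ 1 := fun e => hτ1 (by rw [e, one_mul] at hτ3'; exact hτ3')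
  obtain ⟨z₀, hz₀, hzu, hzK⟩ := exists_unique_fixed 3 hτ1 hτ3
  obtain rfl : z₀ = ∞ := (hzu ∞ (tra_smul_infty 1)).symm
  let Zc : P2 F → Prop := fun z => z * z = 1 ∧ z ≠ 1 ∧ τ * z * (τ * z) * (τ * z) = 1
  set Z : Set (P2 F) := {z | z ∈ W F ∧ Zc z} with hZ
  -- parametrisation
  have hzparam : ∀ a : F, E a (-(a * a + 1)) 1 (-a) (by ring) ∈ Z := by
    intro a
    refine ⟨E_mem_W _ _ _ _ _, (E_sq_eq_one_iff _ _ _ _ _).mpr (Or.inl (by ring)), ?_, ?_⟩
    · rw [Ne, E_eq_one_iff]; simp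
    · rw [hτdef, tra_one_eq, E_mul, E_cube_eq_one_iff]
      left; ring
  have hparam : ∀ z ∈ Z, ∃ a : F, z = E a (-(a * a + 1)) 1 (-a) (by ring) := by
    rintro z ⟨hzW, h2, h1, h3⟩
    obtain ⟨a, b, c, d, h, rfl⟩ := exists_E hzW
    have hd : d = -a := by
      linear_combination ((E_sq_eq_one_iff _ _ _ _ h).mp h2).resolve_right h1
    subst hd
    rw [hτdef, tra_one_eq, E_mul, E_cube_eq_one_iff] at h3
    rcases h3 with h3 | h3
    · have hcc : c * c = 1 := by linear_combination h3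
      rcases mul_self_eq_one_iff.mp hcc with rfl | rfl
      · exact ⟨a, E_congr _ _ rfl (by linear_combination -h) rfl rfl⟩
      · refine ⟨-a, (E_neg h).trans (E_congr _ _ rfl (by linear_combination -h) (neg_neg 1) (by ring))⟩
    · exfalso
      rw [← E_mul 1 1 0 1 (by ring) a b c (-a) h] at h3
      rw [← tra_one_eq, ← hτdef] at h3
      have e := eq_inv_of_mul_eq_one_right h3
      rw [e] at h2
      exact hτ2 (by rw [← inv_eq_one, _root_.mul_inv_rev]; exact h2)
  have hZc : Z.ncard = Fintype.card F := by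
    rw [← Nat.card_coe_set_eq, ← Nat.card_eq_fintype_card]
    refine (Nat.card_congr (Equiv.ofBijective
      (fun a : F => (⟨_, hzparam a⟩ : Z)) ⟨fun a b h => ?_, fun z => ?_⟩)).symm
    · rcases (E_eq_iff (by ring) (by ring)).mp (congrArg Subtype.val h) with ⟨e, -, -, -⟩ | ⟨-, -, e, -⟩
      · exact e.symm
      · exact absurd (by linear_combination e : (2 : F) = 0) hF.two
    · obtain ⟨a, ha⟩ := hparam z z.2
      exact ⟨a, Subtype.ext ha.symm⟩
  have hZinf : ∀ z ∈ Z, z • (∞ : OnePoint F) ≠ ∞ := by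
    intro z hz
    obtain ⟨a, rfl⟩ := hparam z hz
    exact E_smul_infty_ne _ _ _ _ _ one_ne_zero
  set B : Set (P2 F) := ((BW (∞ : OnePoint F) : Subgroup (P2 F)) : Set (P2 F)) with hB
  have hS : solSet τ ∩ (W F : Set (P2 F)) =
      B ∪ (Z ∪ ((fun z => τ * z) '' Z ∪ (fun z => τ * τ * z) '' Z)) := by
    ext y
    simp only [Set.mem_inter_iff, Set.mem_union, Set.mem_image, hB, SetLike.mem_coe, mem_BW]
    constructor
    · rintro ⟨hs, hy⟩
      set G := Subgroup.closure ({τ, y} : Set (P2 F))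
      have hxG : τ ∈ G := Subgroup.subset_closure (by simp)
      have hyG : y ∈ G := Subgroup.subset_closure (by simp)
      rcases classes_three hF (closure_pair_le hτW hy) hs with ⟨w, hw⟩ | ⟨a, b, hab, hle⟩ | ⟨φ, hφ⟩
      · obtain rfl := hzu w (hw τ hxG)
        exact Or.inl ⟨hw y hyG, hy⟩
      · exfalso
        rcases hle hxG with h | h
        · exact hab ((hzK a h.1).trans (hzK b h.2).symm)
        · exact hτ2 (sq_eq_one_of_swap hab h.1 h.2)
      · -- inside `A₄`
        have hone : ∀ g : G, φ g = 1 ↔ g = 1 := fun g =>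
          ⟨fun h => hφ (h.trans (map_one φ).symm), fun h => by rw [h, map_one]⟩
        have hX : φ ⟨τ, hxG⟩ * φ ⟨τ, hxG⟩ * φ ⟨τ, hxG⟩ = 1 := by
          rw [← map_mul, ← map_mul, hone]; exact Subtype.ext hτ3'
        have hX1 : φ ⟨τ, hxG⟩ ≠ 1 := by
          rw [Ne, hone]; exact fun h => hτ1 (congrArg Subtype.val h)
        have htri := A4_three (φ ⟨τ, hxG⟩) (φ ⟨y, hyG⟩) hX hX1
        rcases htri with h | h | h | ⟨z, hz2, hz1, hz3, hz⟩
        · rw [hone] at h
          have h' : y = 1 := congrArg Subtype.val h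
          exact Or.inl ⟨by rw [h', one_smul], hy⟩
        · have h' : y = τ := congrArg Subtype.val (hφ h)
          exact Or.inl ⟨by rw [h']; exact hz₀, hy⟩
        · rw [← map_mul] at h
          have h' : y = τ * τ := congrArg Subtype.val (hφ h)
          exact Or.inl ⟨by rw [h', mul_smul, hz₀, hz₀], hy⟩
        · obtain ⟨u, rfl⟩ : ∃ u, φ u = z := by
            rcases hz with hz | hz | hz
            · exact ⟨_, hz⟩
            · refine ⟨(⟨τ, hxG⟩ : G)⁻¹ * ⟨y, hyG⟩, ?_⟩
              rw [map_mul, map_inv, hz, inv_mul_cancel_left]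
            · refine ⟨(⟨τ, hxG⟩ * ⟨τ, hxG⟩ : G)⁻¹ * ⟨y, hyG⟩, ?_⟩
              rw [map_mul, map_inv, map_mul, hz, inv_mul_cancel_left]
          rw [← map_mul, hone] at hz2
          rw [Ne, hone] at hz1
          rw [← map_mul, ← map_mul, ← map_mul, hone] at hz3
          have huW : (u : P2 F) ∈ W F := closure_pair_le hτW hy u.2
          have huZ : (u : P2 F) ∈ Z :=
            ⟨huW, congrArg Subtype.val hz2, fun h => hz1 (Subtype.ext h), congrArg Subtype.val hz3⟩
          simp only [← map_mul] at hz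
          rcases hz with h | h | h
          · exact Or.inr (Or.inl (by have h' : y = u := congrArg Subtype.val (hφ h); rw [h']; exact huZ))
          · exact Or.inr (Or.inr (Or.inl ⟨u, huZ, (congrArg Subtype.val (hφ h)).symm⟩))
          · exact Or.inr (Or.inr (Or.inr ⟨u, huZ, (congrArg Subtype.val (hφ h)).symm⟩))
    · rintro (⟨h, hy⟩ | hz)
      · exact ⟨mem_solSet_of_fix hz₀ h, hy⟩
      · have key : ∀ z ∈ Z, ∀ w ∈ Subgroup.closure ({z, τ} : Set (P2 F)), w ∈ solSet τ := by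
          rintro z ⟨-, h2, -, h3⟩ w hw
          have hzτ : z * τ * (z * τ) * (z * τ) = 1 := by
            calc z * τ * (z * τ) * (z * τ) = z * (τ * z * (τ * z) * (τ * z)) * z⁻¹ := by group
              _ = 1 := by rw [h3]; group
          exact solvable_of_le (closure_pair_le (Subgroup.subset_closure (by simp)) hw)
            (solvable_of_two_three_three h2 hτ3' hzτ)
        have hm : ∀ z : P2 F, z ∈ Subgroup.closure ({z, τ} : Set (P2 F)) ∧
            τ ∈ Subgroup.closure ({z, τ} : Set (P2 F)) := fun z =>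
          ⟨Subgroup.subset_closure (by simp), Subgroup.subset_closure (by simp)⟩
        rcases hz with h | ⟨z, hz, rfl⟩ | ⟨z, hz, rfl⟩
        · exact ⟨key y h y (hm y).1, h.1⟩
        · exact ⟨key z hz _ (mul_mem (hm z).2 (hm z).1), mul_mem hτW hz.1⟩
        · exact ⟨key z hz _ (mul_mem (mul_mem (hm z).2 (hm z).2) (hm z).1),
            mul_mem (mul_mem hτW hτW) hz.1⟩
  have hne : ∀ z ∈ Z, τ * z ∉ Z := by
    rintro z ⟨-, -, -, h3⟩ ⟨-, h2, h1, -⟩
    rw [h2, one_mul] at h3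
    exact h1 h3
  have hne2 : ∀ z ∈ Z, τ * τ * z ∉ Z := by
    rintro z ⟨-, h2, h1, -⟩ ⟨-, -, -, h3⟩
    rw [show τ * (τ * τ * z) = z by rw [← mul_assoc, ← mul_assoc, hτ3', one_mul], h2, one_mul] at h3
    exact h1 h3
  have d1 : Disjoint ((fun z => τ * z) '' Z) ((fun z => τ * τ * z) '' Z) := by
    rw [Set.disjoint_left]
    rintro _ ⟨z, hz, rfl⟩ ⟨w, hw, hwz⟩
    simp only at hwz
    rw [mul_assoc] at hwz
    exact hne w hw ((mul_left_cancel hwz) ▸ hz)
  have d2 : Disjoint Z ((fun z => τ * z) '' Z ∪ (fun z => τ * τ * z) '' Z) := by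
    rw [Set.disjoint_left]
    rintro _ hy (⟨z, hz, rfl⟩ | ⟨z, hz, rfl⟩)
    · exact hne z hz hy
    · exact hne2 z hz hy
  have d3 : Disjoint B (Z ∪ ((fun z => τ * z) '' Z ∪ (fun z => τ * τ * z) '' Z)) := by
    rw [Set.disjoint_left]
    intro y hy hy'
    have hyi : y • (∞ : OnePoint F) = ∞ := (mem_BW.mp hy).1
    rcases hy' with h | ⟨z, hz, rfl⟩ | ⟨z, hz, rfl⟩
    · exact hZinf y h hyi
    · refine hZinf z hz (smul_left_cancel τ ?_)
      rw [← mul_smul, hyi, hz₀]
    · refine hZinf z hz (smul_left_cancel (τ * τ) ?_)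
      rw [← mul_smul, hyi, mul_smul, hz₀, hz₀]
  have hBc : B.ncard * 2 = Fintype.card F * (Fintype.card F - 1) := by
    have h := card_stab_W (F := F) (∞ : OnePoint F)
    rw [hF.gcd] at h
    rw [hB, ← Nat.card_coe_set_eq]; exact h
  rw [Nat.card_coe_set_eq, hS, Set.ncard_union_eq d3, Set.ncard_union_eq d2,
    Set.ncard_union_eq d1, Set.ncard_image_of_injective _ (mul_right_injective τ),
    Set.ncard_image_of_injective _ (mul_right_injective (τ * τ)), hZc]
  obtain ⟨k, hk⟩ : ∃ k, Fintype.card F = k + 1 :=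
    ⟨Fintype.card F - 1, by have : 0 < Fintype.card F := Fintype.card_pos; omega⟩
  rw [hk, Nat.add_sub_cancel] at hBc
  rw [hk]
  nlinarith

theorem solSet_order_three (hF : Ternary F) {x : P2 F} (hx : orderOf x = 3) :
    Nat.card ↥(solSet x ∩ (W F : Set (P2 F))) * 2 = Fintype.card F * (Fintype.card F + 5) := by
  have hx1 : x ≠ 1 := fun e => by rw [e, orderOf_one] at hx; omega
  have hx3 : x ^ 3 = 1 := hx ▸ pow_orderOf_eq_one x
  obtain ⟨z, hz, -, -⟩ := exists_unique_fixed 3 hx1 hx3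
  obtain ⟨γ, rfl⟩ := exists_to_infty z
  obtain ⟨u, hu⟩ := eq_tra_of_fix 3 (g := γ⁻¹ * x * γ)
    (by simp [mul_smul, hz])
    (by rw [show γ⁻¹ * x * γ = γ⁻¹ * x * γ⁻¹⁻¹ by rw [inv_inv], conj_pow, hx3]; group)
  have hu0 : u ≠ 0 := by
    rintro rfl
    rw [tra_zero] at hu
    apply hx1
    calc x = γ * (γ⁻¹ * x * γ) * γ⁻¹ := by group
      _ = 1 := by rw [hu]; group
  set δ : P2 F := pr (el u 0 0 1 (by simpa using hu0)) with hδ
  have hconj : δ * tra 1 * δ⁻¹ = tra u := by
    rw [mul_inv_eq_iff_eq_mul, hδ, tra, tra, ← map_mul, ← map_mul]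
    refine congrArg pr (Units.ext ?_)
    ext i j
    rw [gl_mul_apply, gl_mul_apply]
    fin_cases i <;> fin_cases j <;> simp
  have e : x = MulAut.conj (γ * δ) (tra 1) := by
    rw [MulAut.conj_apply]
    calc x = γ * (γ⁻¹ * x * γ) * γ⁻¹ := by group
      _ = γ * (δ * tra 1 * δ⁻¹) * γ⁻¹ := by rw [hu, hconj]
      _ = γ * δ * tra 1 * (γ * δ)⁻¹ := by group
  rw [e, card_solSet_conj]
  exact solSet_three hF

end CfsgLib.H29.Solubilizer
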